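import Cfsg.Agent.ICore.BN
import Cfsg.Agent.ChevGrp.Conn

set_option autoImplicit false

/-!
Iterated cores of a maximal parabolic subgroup over the field with two elements.
-/

namespace Cfsg.Agent.ICore

open Cfsg Cfsg.Agent Cfsg.Agent.ChevGrp Cfsg.Agent.ChevGrp.RGrp

variable {l n : ℕ} {S : WSys l n} {G : Type*} [Group G]

section bnTop

variable (R : RGrp S G)

/-- the (B, N)-pair of a group with a system of root subgroups -/
def bnTop (hR : R.Grp = ⊤) : Cfsg.BNPair G where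
  B := R.B
  N := R.N
  S := Set.range R.nn
  sup_eq_top := hR
  conj_mem := by
    rintro m hm t ⟨h1, h2⟩
    exact R.H_le_B (N_conj_H hm (B_inf_N h1 h2))
  subset := by
    rintro _ ⟨i, rfl⟩
    exact R.nn_mem_N i
  sq_mem := by
    rintro _ ⟨i, rfl⟩
    exact R.H_le_B (R.nn_sq i)
  inj := by
    rintro _ ⟨i, rfl⟩ _ ⟨j, rfl⟩ h
    rw [nn_inj h]
  closure_sup := by
    rw [B_inf_N_eq, sup_comm]; rfl
  mul_mem_union := by
    rintro _ ⟨i, rfl⟩ m hm b hb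
    rcases bn i hm hb with ⟨b₁, h1, b₂, h2, e⟩ | ⟨b₁, h1, b₂, h2, e⟩
    · left
      rw [DoubleCoset.mem_doubleCoset]
      exact ⟨b₁, h1, b₂, h2, e⟩
    · right
      rw [DoubleCoset.mem_doubleCoset]
      exact ⟨b₁, h1, b₂, h2, e⟩
  conj_ne := by
    rintro _ ⟨i, rfl⟩ h
    obtain ⟨b, hb, hb'⟩ := conj_ne (R := R) i
    apply hb'
    have : R.nn i * b * R.nn i ∈ (R.B : Set G) := by
      rw [← h]; exact ⟨b, hb, rfl⟩
    exact this

theorem irred_bnTop (hR : R.Grp = ⊤) (hc : S.Conn) : (bnTop R hR).Irreducible := by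
  intro J hJ hne hne'
  obtain ⟨x₀, hx₀⟩ := hne
  obtain ⟨y₀, hy₀, hy₀'⟩ := hne'
  obtain ⟨i₀, hi₀⟩ := hJ hx₀
  obtain ⟨j₀, hj₀⟩ := hy₀
  obtain ⟨i, hi, j, hj, hw⟩ := hc {i | R.nn i ∈ J} ⟨i₀, by rw [Set.mem_ofPred_eq, hi₀]; exact hx₀⟩
    ⟨j₀, fun h => hy₀' (by rw [Set.mem_ofPred_eq, hj₀] at h; exact h)⟩
  refine ⟨R.nn i, hi, R.nn j, ⟨⟨j, rfl⟩, hj⟩, fun hB => hw ?_⟩
  have hN : R.nn i * R.nn j * (R.nn i)⁻¹ * (R.nn j)⁻¹ ∈ R.N :=
    mul_mem (mul_mem (mul_mem (R.nn_mem_N i) (R.nn_mem_N j)) (inv_mem (R.nn_mem_N i))) (inv_mem (R.nn_mem_N j))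
  have h1 := R.act_H (B_inf_N hB hN)
  have h2 := (((act_nn (R := R) i).mul (act_nn j)).mul (act_nn i).inv).mul (act_nn j).inv
  have h3 := h2.unique h1
  calc S.w i * S.w j = (S.w i * S.w j * (S.w i)⁻¹ * (S.w j)⁻¹) * (S.w j * S.w i) := by group
    _ = S.w j * S.w i := by rw [h3, one_mul]

end bnTop

/-- the data -/
structure ICD (R : RGrp S G) where
  j0 : Fin l
  lev : Fin n → ℤ
  x : Fin n → G
  H_bot : R.H = ⊥
  Grp_top : R.Grp = ⊤
  mem_X : ∀ r g, g ∈ R.X r ↔ g = 1 ∨ g = x r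
  lev_w : ∀ j, j ≠ j0 → ∀ r, lev (S.w j r) = lev r
  lev_w0 : ∀ r, 2 ≤ lev r → lev r - 1 ≤ lev (S.w j0 r)
  pos_of_lev : ∀ r, 0 < lev r → S.Pos r
  lev_nonneg : ∀ r, S.Pos r → 0 ≤ lev r
  lev_p0 : lev (S.p j0) = 1
  comm : ∀ r s, S.Pos r → S.Pos s →
    x r * x s * (x r)⁻¹ * (x s)⁻¹ ∈ gen R.X (fun v => S.Pos v ∧ lev r + lev s ≤ lev v)
  adj : Fin l → Fin n → Prop
  simp_comm : ∀ j, j ≠ j0 → ∀ r, 1 ≤ lev r →
    (adj j r ∧ x (S.p j) * x r * (x (S.p j))⁻¹ = x r * x (S.w j r)) ∨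
    (¬ adj j r ∧ x (S.p j) * x r * (x (S.p j))⁻¹ = x r)
  adj_lt : ∀ j, j ≠ j0 → ∀ r, 1 ≤ lev r → adj j r → r < S.w j r
  adj_mono : ∀ j, j ≠ j0 → ∀ r s, 1 ≤ lev r → 1 ≤ lev s → adj j r → adj j s → r < s → S.w j r < S.w j s
  top : ℤ → Fin n
  lev_top : ∀ i, 1 ≤ i → i ≤ 6 → lev (top i) = i
  le_top : ∀ i r, 1 ≤ i → i ≤ 6 → lev r = i → r ≠ top i → r < top i ∧ ∃ j, j ≠ j0 ∧ adj j r
  lev_le : ∀ r, lev r ≤ 6
  longest0 : ∃ L : List (Fin l), (∀ j ∈ L, j ≠ j0) ∧ ∀ r, S.Pos r → lev r = 0 → ¬ S.Pos (S.wd L r)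
  conn : S.Conn
  simple : IsSimpleGroup G

namespace ICD

variable {R : RGrp S G} (I : ICD R)

/-- the level subgroups -/
def Ul (k : ℤ) : Subgroup G := gen R.X (fun v => S.Pos v ∧ k ≤ I.lev v)

theorem x_mem (r : Fin n) : I.x r ∈ R.X r := (I.mem_X r _).2 (Or.inr rfl)

theorem x_mem_Ul {r : Fin n} (hr : S.Pos r) {k : ℤ} (hk : k ≤ I.lev r) : I.x r ∈ I.Ul k :=
  mem_gen (P := fun v => S.Pos v ∧ k ≤ I.lev v) ⟨hr, hk⟩ (I.x_mem r)

theorem X_le_Ul {r : Fin n} (hr : S.Pos r) {k : ℤ} (hk : k ≤ I.lev r) : R.X r ≤ I.Ul k :=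
  le_gen (P := fun v => S.Pos v ∧ k ≤ I.lev v) ⟨hr, hk⟩

theorem Ul_anti {k k' : ℤ} (h : k ≤ k') : I.Ul k' ≤ I.Ul k := gen_mono fun _ hv => ⟨hv.1, h.trans hv.2⟩

theorem Ul_le_U (k : ℤ) : I.Ul k ≤ R.U := gen_mono fun _ hv => hv.1

theorem U_le_Ul : R.U ≤ I.Ul 0 := gen_mono fun v hv => ⟨hv, I.lev_nonneg v hv⟩

include I in
theorem B_eq : R.B = R.U := by rw [RGrp.B, I.H_bot, sup_bot_eq]

theorem Ul_top {k : ℤ} (hk : 6 < k) : I.Ul k = ⊥ := by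
  rw [eq_bot_iff]
  unfold Ul
  rw [gen_le]
  intro r hr
  have := I.lev_le r
  omega

theorem x_norm {r : Fin n} (hr : S.Pos r) {k : ℤ} : ∀ y ∈ I.Ul k, I.x r * y * (I.x r)⁻¹ ∈ I.Ul k := by
  refine conj_gen ?_
  intro s hs y hy
  rcases (I.mem_X s y).1 hy with rfl | rfl
  · rw [mul_one, mul_inv_cancel]; exact one_mem _
  · have h1 := I.comm r s hr hs.1
    have h2 : I.x r * I.x s * (I.x r)⁻¹ = (I.x r * I.x s * (I.x r)⁻¹ * (I.x s)⁻¹) * I.x s := by group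
    rw [h2]
    refine mul_mem ?_ (I.x_mem_Ul hs.1 hs.2)
    have h3 := I.lev_nonneg r hr
    exact gen_mono (fun v hv => ⟨hv.1, by have := hv.2; have := hs.2; omega⟩) h1

theorem X_norm {r : Fin n} (hr : S.Pos r) {k : ℤ} {g : G} (hg : g ∈ R.X r) : ∀ y ∈ I.Ul k, g * y * g⁻¹ ∈ I.Ul k := by
  rcases (I.mem_X r g).1 hg with rfl | rfl
  · intro y hy; simpa using hy
  · exact I.x_norm hr

theorem le_normalizer {A K : Subgroup G} (h : ∀ a ∈ A, ∀ k ∈ K, a * k * a⁻¹ ∈ K) :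
    A ≤ Subgroup.normalizer (K : Set G) := by
  intro a ha
  rw [Subgroup.mem_normalizer_iff]
  intro k
  constructor
  · exact h a ha k
  · intro hk
    have := h a⁻¹ (inv_mem ha) _ hk
    have e : a⁻¹ * (a * k * a⁻¹) * a⁻¹⁻¹ = k := by group
    rwa [e] at this

theorem U_normalizes (k : ℤ) : R.U ≤ Subgroup.normalizer (I.Ul k : Set G) := by
  unfold RGrp.U
  rw [gen_le]
  intro r hr
  exact le_normalizer fun a ha => I.X_norm hr ha

theorem nn_normalizes {j : Fin l} (hj : j ≠ I.j0) {k : ℤ} (hk : 1 ≤ k) :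
    R.nn j ∈ Subgroup.normalizer (I.Ul k : Set G) := by
  have h1 : ∀ y ∈ I.Ul k, R.nn j * y * (R.nn j)⁻¹ ∈ I.Ul k := by
    refine act_gen (act_nn j) ?_
    intro r hr
    have h2 := I.lev_w j hj r
    refine ⟨I.pos_of_lev _ (by omega), by omega⟩
  have h2 : ∀ y ∈ I.Ul k, (R.nn j)⁻¹ * y * R.nn j ∈ I.Ul k := by
    refine act_gen' (act_nn j) ?_
    intro r hr
    rw [S.w_inv]
    have h2 := I.lev_w j hj r
    refine ⟨I.pos_of_lev _ (by omega), by omega⟩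
  rw [Subgroup.mem_normalizer_iff]
  intro y
  constructor
  · exact h1 y
  · intro hy
    have := h2 _ hy
    have e : (R.nn j)⁻¹ * (R.nn j * y * (R.nn j)⁻¹) * R.nn j = y := by group
    rwa [e] at this

/-- the (B, N)-pair -/
def P : Cfsg.BNPair G := bnTop R I.Grp_top

/-- the node -/
def s0 : (I.P).S := ⟨R.nn I.j0, I.j0, rfl⟩

/-- the maximal parabolic subgroup -/
def M : Subgroup G := mx I.P I.s0

theorem nn_mem_M {j : Fin l} (hj : j ≠ I.j0) : R.nn j ∈ I.M := by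
  refine (mem_mx I.P (s0 := I.s0) (s := ⟨R.nn j, j, rfl⟩)).2 ?_
  intro h
  apply hj
  apply nn_inj (R := R)
  have : R.nn j = R.nn I.j0 := congrArg Subtype.val h
  rw [this, inv_mul_cancel]
  exact one_mem _

theorem nn0_notMem_M : R.nn I.j0 ∉ I.M := fun h => (mem_mx I.P (s0 := I.s0) (s := I.s0)).1 h rfl

theorem B_le_M : R.B ≤ I.M := B_le_mx I.P I.s0

theorem U_le_M : R.U ≤ I.M := R.U_le_B.trans I.B_le_M

theorem Ul_le_M (k : ℤ) : I.Ul k ≤ I.M := (I.Ul_le_U k).trans I.U_le_M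

theorem M_le {K : Subgroup G} (hB : R.U ≤ K) (hK : ∀ j, j ≠ I.j0 → R.nn j ∈ K) : I.M ≤ K := by
  unfold M mx
  rw [BNP.par_le_iff I.P (M := K) (by change R.B ≤ K; rw [I.B_eq]; exact hB)]
  rintro ⟨_, j, rfl⟩ hs
  apply hK
  rintro rfl
  exact hs rfl

theorem M_normalizes {k : ℤ} (hk : 1 ≤ k) : ∀ m ∈ I.M, ∀ y ∈ I.Ul k, m * y * m⁻¹ ∈ I.Ul k := by
  intro m hm y hy
  have h := I.M_le (I.U_normalizes k) (fun j hj => I.nn_normalizes hj hk) hm
  rw [Subgroup.mem_normalizer_iff] at h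
  exact (h y).1 hy

/-! ### the layers -/

theorem x_ne (r : Fin n) : I.x r ≠ 1 := by
  intro h
  apply R.X_ne_bot r
  rw [Subgroup.eq_bot_iff_forall]
  intro g hg
  rcases (I.mem_X r g).1 hg with h1 | h1
  · exact h1
  · rw [h1, h]

theorem eq_x {r : Fin n} {g : G} (hg : g ∈ R.X r) (h1 : g ≠ 1) : g = I.x r := by
  rcases (I.mem_X r g).1 hg with h | h
  · exact absurd h h1
  · exact h

theorem comm_closure {K : Subgroup G} {T : Set G} {g : G}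
    (hK : ∀ t ∈ Subgroup.closure T, ∀ k ∈ K, t * k * t⁻¹ ∈ K) (h : ∀ t ∈ T, g * t * g⁻¹ * t⁻¹ ∈ K) :
    ∀ t ∈ Subgroup.closure T, g * t * g⁻¹ * t⁻¹ ∈ K := by
  intro t ht
  induction ht using Subgroup.closure_induction with
  | mem t ht => exact h t ht
  | one =>
    have : g * 1 * g⁻¹ * (1 : G)⁻¹ = 1 := by group
    rw [this]; exact one_mem _
  | mul a b ha hb iha ihb =>
    have e : g * (a * b) * g⁻¹ * (a * b)⁻¹ = (g * a * g⁻¹ * a⁻¹) * (a * (g * b * g⁻¹ * b⁻¹) * a⁻¹) := by group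
    rw [e]
    exact mul_mem iha (hK a ha _ ihb)
  | inv a ha iha =>
    have e : g * a⁻¹ * g⁻¹ * a⁻¹⁻¹ = a⁻¹ * (g * a * g⁻¹ * a⁻¹)⁻¹ * a⁻¹⁻¹ := by group
    rw [e]
    exact hK _ (inv_mem ha) _ (inv_mem iha)

/-- the index filtration of a layer -/
def F (i : ℤ) (k : ℕ) : Subgroup G := gen R.X (fun v => S.Pos v ∧ (i + 1 ≤ I.lev v ∨ (I.lev v = i ∧ k ≤ (v : ℕ))))

theorem Ul_le_F (i : ℤ) (k : ℕ) : I.Ul (i + 1) ≤ I.F i k := gen_mono fun _ hv => ⟨hv.1, Or.inl hv.2⟩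

theorem F_le_Ul (i : ℤ) (k : ℕ) : I.F i k ≤ I.Ul i := gen_mono fun _ hv => ⟨hv.1, by have := hv.2; omega⟩

theorem Ul_le_F0 (i : ℤ) : I.Ul i ≤ I.F i 0 := gen_mono fun v hv => ⟨hv.1, by have := hv.2; omega⟩

theorem F_last (i : ℤ) : I.F i n ≤ I.Ul (i + 1) :=
  gen_mono fun v hv => ⟨hv.1, by have := hv.2; have := v.2; omega⟩

theorem x_mem_F {r : Fin n} {i : ℤ} {k : ℕ} (hr : S.Pos r) (h : i + 1 ≤ I.lev r ∨ (I.lev r = i ∧ k ≤ (r : ℕ))) :
    I.x r ∈ I.F i k :=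
  mem_gen (P := fun v => S.Pos v ∧ (i + 1 ≤ I.lev v ∨ (I.lev v = i ∧ k ≤ (v : ℕ)))) ⟨hr, h⟩ (I.x_mem r)

/-- the first level normalises the filtration -/
theorem F_norm {i : ℤ} (k : ℕ) : ∀ g ∈ I.Ul 1, ∀ z ∈ I.F i k, g * z * g⁻¹ ∈ I.F i k := by
  have h : I.Ul 1 ≤ Subgroup.normalizer (I.F i k : Set G) := by
    unfold Ul
    rw [gen_le]
    intro r hr
    refine le_normalizer fun a ha => ?_
    rcases (I.mem_X r a).1 ha with rfl | rfl
    · intro z hz; simpa using hz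
    · refine conj_gen ?_
      intro s hs y hy
      rcases (I.mem_X s y).1 hy with rfl | rfl
      · rw [mul_one, mul_inv_cancel]; exact one_mem _
      · have h1 := I.comm r s hr.1 hs.1
        have h2 : I.x r * I.x s * (I.x r)⁻¹ = (I.x r * I.x s * (I.x r)⁻¹ * (I.x s)⁻¹) * I.x s := by group
        rw [h2]
        refine mul_mem (I.Ul_le_F i k ?_) (I.x_mem_F hs.1 hs.2)
        exact gen_mono (fun v hv => ⟨hv.1, by have := hv.2; have := hr.2; have := hs.2; omega⟩) h1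
  intro g hg z hz
  have := h hg
  rw [Subgroup.mem_normalizer_iff] at this
  exact (this z).1 hz

theorem comm_F {i : ℤ} (hi : 1 ≤ i) {j : Fin l} (hj : j ≠ I.j0) {k : Fin n} (hk : I.lev k = i) (ha : I.adj j k) :
    ∀ z ∈ I.F i (k + 1), I.x (S.p j) * z * (I.x (S.p j))⁻¹ * z⁻¹ ∈ I.F i (S.w j k + 1) := by
  have hle : I.F i (k + 1) ≤ I.Ul 1 := (I.F_le_Ul _ _).trans (I.Ul_anti hi)
  refine comm_closure (fun t ht z hz => I.F_norm _ t (hle ht) z hz) ?_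
  rintro t ⟨s, ⟨hs, hs'⟩, hts⟩
  rcases (I.mem_X s t).1 hts with rfl | rfl
  · have : I.x (S.p j) * 1 * (I.x (S.p j))⁻¹ * (1 : G)⁻¹ = 1 := by group
    rw [this]; exact one_mem _
  · rcases hs' with h1 | ⟨h1, h2⟩
    · apply I.Ul_le_F
      exact mul_mem (I.x_norm (S.pos_p j) _ (I.x_mem_Ul hs h1)) (inv_mem (I.x_mem_Ul hs h1))
    · rcases I.simp_comm j hj s (by omega) with ⟨h3, h4⟩ | ⟨-, h4⟩
      · rw [h4]
        have h5 : k < s := by rw [Fin.lt_def]; omega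
        have h6 := I.adj_mono j hj k s (by omega) (by omega) ha h3 h5
        refine I.F_norm _ _ (I.x_mem_Ul hs (by omega)) _ (I.x_mem_F ?_ (Or.inr ⟨?_, ?_⟩))
        · exact I.pos_of_lev _ (by rw [I.lev_w j hj]; omega)
        · rw [I.lev_w j hj]; exact h1
        · rw [Fin.lt_def] at h6; omega
      · rw [h4, mul_inv_cancel]; exact one_mem _

/-- climbing one step -/
theorem climb {i : ℤ} (hi : 1 ≤ i) {N : Subgroup G} (hN : ∀ j, j ≠ I.j0 → ∀ v ∈ N, I.x (S.p j) * v * (I.x (S.p j))⁻¹ ∈ N)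
    {j : Fin l} (hj : j ≠ I.j0) {k : Fin n} (hk : I.lev k = i) (ha : I.adj j k)
    (h : ∃ z ∈ I.F i (k + 1), I.x k * z ∈ N) : ∃ z ∈ I.F i (S.w j k + 1), I.x (S.w j k) * z ∈ N := by
  obtain ⟨z, hz, hzN⟩ := h
  have h1 := mul_mem (hN j hj _ hzN) (inv_mem hzN)
  have h2 : I.x (S.p j) * I.x k * (I.x (S.p j))⁻¹ = I.x k * I.x (S.w j k) := by
    rcases I.simp_comm j hj k (by omega) with ⟨-, h4⟩ | ⟨h3, -⟩
    · exact h4
    · exact absurd ha h3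
  have h3 := I.comm_F hi hj hk ha z hz
  have hkp : S.Pos k := I.pos_of_lev k (by omega)
  have hlk : I.lev (S.w j k) = i := by rw [I.lev_w j hj]; exact hk
  have hkp' : S.Pos (S.w j k) := I.pos_of_lev _ (by omega)
  have hx1 : I.x k ∈ I.Ul 1 := I.x_mem_Ul hkp (by omega)
  set c := I.x (S.p j) * z * (I.x (S.p j))⁻¹ * z⁻¹ with hc
  refine ⟨(I.x (S.w j k))⁻¹ * I.x k * (I.x (S.w j k))⁻¹⁻¹ * (I.x k)⁻¹ * (I.x k * c * (I.x k)⁻¹), ?_, ?_⟩
  · refine mul_mem (I.Ul_le_F _ _ ?_) (I.F_norm _ _ hx1 _ h3)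
    have h4 := I.comm (S.w j k) k hkp' hkp
    have h5 : I.x (S.w j k) * I.x k * (I.x (S.w j k))⁻¹ * (I.x k)⁻¹ ∈ I.Ul (i + 1) :=
      gen_mono (fun v hv => ⟨hv.1, by have := hv.2; omega⟩) h4
    have h6 := I.M_normalizes (k := i + 1) (by omega) (I.x (S.w j k))⁻¹
      (inv_mem (I.U_le_M (R.X_le_U hkp' (I.x_mem _)))) _ h5
    have e : (I.x (S.w j k))⁻¹ * (I.x (S.w j k) * I.x k * (I.x (S.w j k))⁻¹ * (I.x k)⁻¹) * (I.x (S.w j k))⁻¹⁻¹ =
      ((I.x (S.w j k))⁻¹ * I.x k * (I.x (S.w j k))⁻¹⁻¹ * (I.x k)⁻¹)⁻¹ := by group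
    rw [e] at h6
    exact (inv_mem_iff).1 h6
  · have e : I.x (S.w j k) * ((I.x (S.w j k))⁻¹ * I.x k * (I.x (S.w j k))⁻¹⁻¹ * (I.x k)⁻¹ * (I.x k * c * (I.x k)⁻¹)) =
        I.x k * I.x (S.w j k) * c * (I.x k)⁻¹ := by group
    have e2 : I.x (S.p j) * (I.x k * z) * (I.x (S.p j))⁻¹ * (I.x k * z)⁻¹ =
        I.x k * I.x (S.w j k) * c * (I.x k)⁻¹ := by
      rw [← h2, hc]; group
    rw [e, ← e2]
    exact h1

theorem climb_top {i : ℤ} (hi : 1 ≤ i) (hi6 : i ≤ 6) {N : Subgroup G} (hU : I.Ul (i + 1) ≤ N)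
    (hN : ∀ j, j ≠ I.j0 → ∀ v ∈ N, I.x (S.p j) * v * (I.x (S.p j))⁻¹ ∈ N) :
    ∀ d : ℕ, ∀ k : Fin n, n - k = d → I.lev k = i → (∃ z ∈ I.F i (k + 1), I.x k * z ∈ N) → I.x (I.top i) ∈ N := by
  intro d
  induction d using Nat.strong_induction_on with
  | _ d ih =>
    intro k hd hk h
    by_cases hkt : k = I.top i
    · obtain ⟨z, hz, hzN⟩ := h
      have h1 : z ∈ I.Ul (i + 1) := by
        refine gen_mono (fun v hv => ⟨hv.1, ?_⟩) hz
        rcases hv.2 with h2 | ⟨h2, h3⟩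
        · exact h2
        · exfalso
          have h4 : v ≠ I.top i := by
            intro h5; rw [h5, hkt] at h3; omega
          have h5 := (I.le_top i v hi hi6 h2 h4).1
          rw [Fin.lt_def] at h5
          rw [hkt] at h3
          omega
      have h2 := mul_mem hzN (inv_mem (hU h1))
      rw [mul_inv_cancel_right] at h2
      rw [← hkt]; exact h2
    · obtain ⟨-, j, hj, ha⟩ := I.le_top i k hi hi6 hk hkt
      have h1 := I.climb hi hN hj hk ha h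
      have h2 := I.adj_lt j hj k (by omega) ha
      rw [Fin.lt_def] at h2
      have h3 := (S.w j k).2
      exact ih (n - (S.w j k : ℕ)) (by omega) (S.w j k) rfl (by rw [I.lev_w j hj]; exact hk) h1

theorem exists_lead {i : ℤ} (hi : 1 ≤ i) {v : G} (hv : v ∈ I.Ul i) (hv' : v ∉ I.Ul (i + 1)) :
    ∃ k : Fin n, I.lev k = i ∧ S.Pos k ∧ ∃ z ∈ I.F i (k + 1), v = I.x k * z := by
  by_contra hcon
  push Not at hcon
  have key : ∀ k : ℕ, k ≤ n → v ∈ I.F i k := by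
    intro k
    induction k with
    | zero => intro _; exact I.Ul_le_F0 i hv
    | succ k ih =>
      intro hk
      have h1 := ih (by omega)
      have hk' : k < n := by omega
      by_cases h2 : S.Pos ⟨k, hk'⟩ ∧ I.lev ⟨k, hk'⟩ = i
      · have h3 : I.F i k ≤ R.X ⟨k, hk'⟩ ⊔ I.F i (k + 1) := by
          unfold F
          rw [gen_le]
          intro s hs
          by_cases hsk : s = ⟨k, hk'⟩
          · rw [hsk]; exact le_sup_left
          · have hsk' : (s : ℕ) ≠ k := fun h => hsk (Fin.ext h)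
            refine le_trans ?_ le_sup_right
            exact le_gen (P := fun v => S.Pos v ∧ (i + 1 ≤ I.lev v ∨ (I.lev v = i ∧ k + 1 ≤ (v : ℕ))))
              ⟨hs.1, by have := hs.2; omega⟩
        have hx : R.X ⟨k, hk'⟩ ≤ I.Ul 1 := I.X_le_Ul h2.1 (by rw [h2.2]; exact hi)
        obtain ⟨a, ha, z, hz, e⟩ := mem_sup_of_normalizes (fun a ha z hz => I.F_norm (i := i) (k + 1) a (hx ha) z hz) (h3 h1)
        rcases (I.mem_X _ a).1 ha with rfl | rfl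
        · rw [one_mul] at e; rw [e]; exact hz
        · exact absurd e (hcon ⟨k, hk'⟩ h2.2 h2.1 z hz)
      · refine gen_mono (fun v hv => ⟨hv.1, ?_⟩) h1
        rcases hv.2 with h3 | ⟨h3, h4⟩
        · exact Or.inl h3
        · right
          refine ⟨h3, ?_⟩
          by_contra h5
          have h6 : v = ⟨k, hk'⟩ := Fin.ext (show (v : ℕ) = k by omega)
          rw [h6] at hv h3
          exact h2 ⟨hv.1, h3⟩
  exact hv' (I.F_last i (key n le_rfl))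

/-- irreducibility of the layers -/
theorem irr {i : ℤ} (hi : 1 ≤ i) (hi6 : i ≤ 6) {N : Subgroup G} (hU : I.Ul (i + 1) ≤ N) (hNU : N ≤ I.Ul i)
    (hN : ∀ m ∈ I.M, ∀ v ∈ N, m * v * m⁻¹ ∈ N) (hne : ¬ N ≤ I.Ul (i + 1)) : I.Ul i ≤ N := by
  obtain ⟨v, hv, hv'⟩ := SetLike.not_le_iff_exists.1 hne
  obtain ⟨k, hk, hkp, z, hz, e⟩ := I.exists_lead hi (hNU hv) hv'
  have hN' : ∀ j, j ≠ I.j0 → ∀ v ∈ N, I.x (S.p j) * v * (I.x (S.p j))⁻¹ ∈ N := fun j _ v hv =>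
    hN _ (I.U_le_M (R.X_le_U (S.pos_p j) (I.x_mem _))) v hv
  have htop := I.climb_top hi hi6 hU hN' _ k rfl hk ⟨z, hz, by rw [← e]; exact hv⟩
  have key : ∀ d : ℕ, ∀ r : Fin n, n - r = d → I.lev r = i → I.x r ∈ N := by
    intro d
    induction d using Nat.strong_induction_on with
    | _ d ih =>
      intro r hd hr
      by_cases hrt : r = I.top i
      · rw [hrt]; exact htop
      · obtain ⟨-, j, hj, ha⟩ := I.le_top i r hi hi6 hr hrt
        have h2 := I.adj_lt j hj r (by omega) ha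
        rw [Fin.lt_def] at h2
        have h3 := (S.w j r).2
        have h4 := ih (n - (S.w j r : ℕ)) (by omega) (S.w j r) rfl (by rw [I.lev_w j hj]; exact hr)
        have h5 := (act_nn (R := R) j).conj' (I.x_mem (S.w j r))
        rw [S.w_inv, S.w_w] at h5
        have h6 : (R.nn j)⁻¹ * I.x (S.w j r) * R.nn j ≠ 1 := by
          intro h
          apply I.x_ne (S.w j r)
          have : I.x (S.w j r) = R.nn j * ((R.nn j)⁻¹ * I.x (S.w j r) * R.nn j) * (R.nn j)⁻¹ := by group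
          rw [this, h]; group
        rw [← I.eq_x h5 h6]
        have h7 := hN _ (inv_mem (I.nn_mem_M hj)) _ h4
        rwa [inv_inv] at h7
  unfold Ul
  rw [gen_le]
  rintro r ⟨hr, hr'⟩ y hy
  rcases (I.mem_X r y).1 hy with rfl | rfl
  · exact one_mem _
  · by_cases h : I.lev r = i
    · exact key _ r rfl h
    · exact hU (I.x_mem_Ul hr (by omega))

theorem irr' {i : ℤ} (hi : 1 ≤ i) (hi6 : i ≤ 6) {A : Subgroup G} (hAU : A ≤ I.Ul i)
    (hA : ∀ m ∈ I.M, ∀ v ∈ A, m * v * m⁻¹ ∈ A) (hne : ¬ A ≤ I.Ul (i + 1)) : I.Ul i ≤ A ⊔ I.Ul (i + 1) := by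
  refine I.irr hi hi6 le_sup_right (sup_le hAU (I.Ul_anti (by omega))) ?_ fun h => hne (le_sup_left.trans h)
  intro m hm v hv
  have h1 : ∀ a ∈ A, ∀ c ∈ I.Ul (i + 1), a * c * a⁻¹ ∈ I.Ul (i + 1) := fun a ha c hc =>
    I.M_normalizes (by omega) a (I.Ul_le_M _ (hAU ha)) c hc
  obtain ⟨a, ha, c, hc, rfl⟩ := mem_sup_of_normalizes h1 hv
  have e : m * (a * c) * m⁻¹ = (m * a * m⁻¹) * (m * c * m⁻¹) := by group
  rw [e]
  exact mul_mem (Subgroup.mem_sup_left (hA m hm a ha)) (Subgroup.mem_sup_right (I.M_normalizes (by omega) m hm c hc))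

/-! ### the sequence -/

/-- the conjugating element -/
def s : G := R.nn I.j0

theorem s_sq : I.s * I.s = 1 := by
  have := R.nn_sq I.j0
  rw [I.H_bot, Subgroup.mem_bot] at this
  exact this

theorem s_inv : (I.s)⁻¹ = I.s := by rw [inv_eq_iff_mul_eq_one]; exact I.s_sq

theorem s_notMem : I.s ∉ I.M := I.nn0_notMem_M

theorem s_Ul {k : ℤ} (hk : 1 ≤ k) : ∀ y ∈ I.Ul (k + 1), I.s * y * (I.s)⁻¹ ∈ I.Ul k := by
  refine act_gen (act_nn I.j0) ?_
  intro r hr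
  have h1 := I.lev_w0 r (by have := hr.2; omega)
  have := hr.2
  exact ⟨I.pos_of_lev _ (by omega), by omega⟩

/-- the sequence of the first subgroups -/
def Aseq (i : ℕ) : Subgroup G := (seq I.M (I.M.map (MulAut.conj I.s).toMonoidHom) i).1

/-- the sequence of the second subgroups -/
def Bseq (i : ℕ) : Subgroup G := (seq I.M (I.M.map (MulAut.conj I.s).toMonoidHom) i).2

theorem mem_Bseq (i : ℕ) (x : G) : x ∈ I.Bseq i ↔ I.s * x * (I.s)⁻¹ ∈ I.Aseq i := seq_symm I.s_sq I.M i x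

theorem Aseq_zero : I.Aseq 0 = I.M := rfl

theorem Aseq_succ (i : ℕ) : I.Aseq (i + 1) = core I.M (I.Aseq i ⊓ I.Bseq i) := rfl

theorem Bseq_succ (i : ℕ) : I.Bseq (i + 1) = core (I.M.map (MulAut.conj I.s).toMonoidHom) (I.Aseq i ⊓ I.Bseq i) := rfl

theorem Aseq_norm (i : ℕ) : ∀ m ∈ I.M, ∀ v ∈ I.Aseq (i + 1), m * v * m⁻¹ ∈ I.Aseq (i + 1) := by
  rw [Aseq_succ]; exact core_conj

theorem Aseq_le (i : ℕ) : I.Aseq (i + 1) ≤ I.Aseq i := by
  rw [Aseq_succ]; exact (core_le _ _).trans inf_le_left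

theorem Aseq_le' (i : ℕ) {x : G} (hx : x ∈ I.Aseq (i + 1)) : I.s * x * (I.s)⁻¹ ∈ I.Aseq i := by
  rw [Aseq_succ] at hx
  exact (I.mem_Bseq i x).1 ((core_le _ _) hx).2

/-- lower bound -/
theorem Ul_le_Aseq (i : ℕ) : I.Ul (i + 1) ≤ I.Aseq i := by
  induction i with
  | zero => exact I.Ul_le_M _
  | succ i ih =>
    rw [Aseq_succ]
    push_cast
    refine le_core (I.Ul_le_M _) (le_inf ((I.Ul_anti (by omega)).trans ih) ?_) (I.M_normalizes (by omega))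
    intro y hy
    rw [mem_Bseq]
    exact ih (I.s_Ul (by omega) y hy)

theorem A1_le_U : I.Aseq 1 ≤ R.U := by
  rw [← I.B_eq]
  refine normal_le_B I.P (irred_bnTop R I.Grp_top I.conn) I.s0 (A := I.Aseq 1) (I.Aseq_le 0) (I.Aseq_norm 0) ?_
  intro a ha
  have h1 := I.Aseq_le' 0 ha
  have h2 : (I.s)⁻¹ * a * I.s = I.s * a * (I.s)⁻¹ := by rw [I.s_inv]
  change (I.s)⁻¹ * a * I.s ∈ I.M
  rw [h2]; exact h1

theorem A1_le_Ul1 : I.Aseq 1 ≤ I.Ul 1 := by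
  obtain ⟨L, hL, hneg⟩ := I.longest0
  have hgM : R.nd L ∈ I.M := by
    clear hneg
    induction L with
    | nil => exact one_mem _
    | cons j L ih =>
      rw [nd_cons]
      exact mul_mem (I.nn_mem_M (hL j (by simp))) (ih fun j hj => hL j (by simp [hj]))
  intro a ha
  have hU : R.U ≤ gen R.X (fun v => S.Pos v ∧ I.lev v = 0) ⊔ I.Ul 1 := by
    unfold RGrp.U
    rw [gen_le]
    intro r hr
    by_cases h0 : I.lev r = 0
    · exact (le_gen (P := fun v => S.Pos v ∧ I.lev v = 0) ⟨hr, h0⟩).trans le_sup_left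
    · exact (I.X_le_Ul hr (by have := I.lev_nonneg r hr; omega)).trans le_sup_right
  have hLU : gen R.X (fun v => S.Pos v ∧ I.lev v = 0) ≤ R.U := gen_mono fun v hv => hv.1
  obtain ⟨b, hb, u, hu, rfl⟩ := mem_sup_of_normalizes
    (fun a ha c hc => I.M_normalizes le_rfl a (I.U_le_M (hLU ha)) c hc) (hU (I.A1_le_U ha))
  have h1 := I.A1_le_U (I.Aseq_norm 0 _ hgM _ ha)
  have h2 := I.Ul_le_U _ (I.M_normalizes le_rfl _ hgM u hu)
  have h3 : R.nd L * b * (R.nd L)⁻¹ ∈ R.U := by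
    have e : R.nd L * b * (R.nd L)⁻¹ = (R.nd L * (b * u) * (R.nd L)⁻¹) * (R.nd L * u * (R.nd L)⁻¹)⁻¹ := by group
    rw [e]; exact mul_mem h1 (inv_mem h2)
  have h4 : R.nd L * b * (R.nd L)⁻¹ ∈ R.V :=
    act_gen (Q := fun r => ¬ S.Pos r) (act_nd L) (fun r hr => hneg r hr.1 hr.2) b hb
  have h5 := R.U_inf_V h3 h4
  have h6 : b = 1 := by
    have : b = (R.nd L)⁻¹ * (R.nd L * b * (R.nd L)⁻¹) * R.nd L := by group
    rw [this, h5]; group
  rw [h6, one_mul]; exact hu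

theorem not_x_conj : ¬ I.s * I.x (S.p I.j0) * (I.s)⁻¹ ∈ I.M := by
  intro h
  have h1 := (act_nn (R := R) I.j0).conj (I.x_mem (S.p I.j0))
  rw [S.w_p] at h1
  have h2 : R.nn I.j0 * I.x (S.p I.j0) * (R.nn I.j0)⁻¹ ≠ 1 := by
    intro h
    apply I.x_ne (S.p I.j0)
    have : I.x (S.p I.j0) = (R.nn I.j0)⁻¹ * (R.nn I.j0 * I.x (S.p I.j0) * (R.nn I.j0)⁻¹) * R.nn I.j0 := by group
    rw [this, h]; group
  obtain ⟨a, ha, k, hk, c, hc, e⟩ := R.rank1 I.j0 _ h1 h2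
  apply I.nn0_notMem_M
  have hXM : R.X (S.p I.j0) ≤ I.M := (R.X_le_U (S.pos_p _)).trans I.U_le_M
  have e2 : R.nn I.j0 = a⁻¹ * (R.nn I.j0 * I.x (S.p I.j0) * (R.nn I.j0)⁻¹) * c⁻¹ * k⁻¹ := by
    rw [e]; group
  rw [e2]
  exact mul_mem (mul_mem (mul_mem (inv_mem (hXM ha)) h) (inv_mem (hXM hc))) (inv_mem (I.B_le_M (R.H_le_B hk)))

theorem A1_le_Ul2 : I.Aseq 1 ≤ I.Ul 2 := by
  by_contra hne
  have h1 := I.irr' (i := 1) le_rfl (by norm_num) I.A1_le_Ul1 (I.Aseq_norm 0) hne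
  have h2 : I.Aseq 1 ⊔ I.Ul (1 + 1) ≤ I.Bseq 0 := by
    refine sup_le ?_ ?_
    · intro x hx
      rw [mem_Bseq]; exact I.Aseq_le' 0 hx
    · intro x hx
      rw [mem_Bseq]; exact I.Ul_le_M _ (I.s_Ul le_rfl x hx)
  have h3 : I.x (S.p I.j0) ∈ I.Ul 1 := I.x_mem_Ul (S.pos_p _) I.lev_p0.ge
  exact I.not_x_conj ((I.mem_Bseq 0 _).1 (h2 (h1 h3)))

theorem not_s_norm {k : ℤ} (hk : 1 ≤ k) (hk6 : k ≤ 6) : ¬ ∀ y ∈ I.Ul k, I.s * y * (I.s)⁻¹ ∈ I.Ul k := by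
  intro h
  have h1 : I.s ∈ Subgroup.normalizer (I.Ul k : Set G) := by
    rw [Subgroup.mem_normalizer_iff]
    intro y
    constructor
    · exact h y
    · intro hy
      have := h _ hy
      have e : I.s * (I.s * y * (I.s)⁻¹) * (I.s)⁻¹ = (I.s * I.s) * y * (I.s * I.s)⁻¹ := by group
      rw [e, I.s_sq] at this
      simpa using this
  have h2 : I.M ≤ Subgroup.normalizer (I.Ul k : Set G) := le_normalizer (I.M_normalizes hk)
  have hco : IsCoatom I.M := isCoatom_mx I.P I.s0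
  have h3 : Subgroup.normalizer (I.Ul k : Set G) = ⊤ := hco.2 _ (lt_of_le_of_ne h2 fun h => I.s_notMem (by
    rw [h]; exact h1))
  have h4 : (I.Ul k).Normal := ⟨fun y hy g => by
    have : g ∈ Subgroup.normalizer (I.Ul k : Set G) := by rw [h3]; trivial
    rw [Subgroup.mem_normalizer_iff] at this
    exact (this y).1 hy⟩
  rcases I.simple.eq_bot_or_eq_top_of_normal _ h4 with h5 | h5
  · have h6 : I.x (I.top k) ∈ I.Ul k :=
      I.x_mem_Ul (I.pos_of_lev _ (by rw [I.lev_top k hk hk6]; omega)) (I.lev_top k hk hk6).ge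
    rw [h5, Subgroup.mem_bot] at h6
    exact I.x_ne _ h6
  · apply hco.1
    rw [eq_top_iff, ← h5]
    exact I.Ul_le_M k

/-- upper bound -/
theorem Aseq_le_Ul (i : ℕ) (hi : i ≤ 5) : I.Aseq (i + 1) ≤ I.Ul (i + 2) := by
  induction i with
  | zero => exact I.A1_le_Ul2
  | succ i ih =>
    have ih := ih (by omega)
    by_contra hne
    push_cast at hne
    have h1 := I.irr' (i := (i : ℤ) + 2) (by omega) (by omega) ((I.Aseq_le (i + 1)).trans ih) (I.Aseq_norm (i + 1))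
      (by convert hne using 2; ring_nf)
    refine I.not_s_norm (k := (i : ℤ) + 2) (by omega) (by omega) ?_
    have h2 : I.Aseq (i + 1 + 1) ⊔ I.Ul ((i : ℤ) + 2 + 1) ≤ (I.Ul ((i : ℤ) + 2)).comap (MulAut.conj I.s).toMonoidHom := by
      refine sup_le ?_ ?_
      · intro x hx
        exact ih (I.Aseq_le' (i + 1) hx)
      · intro x hx
        exact I.s_Ul (by omega) x hx
    intro y hy
    exact h2 (h1 hy)

theorem main (I : ICD R) : ∃ (M₁ M₂ : Subgroup G) (g : G) (A B : ℕ → Subgroup G),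
      IsCoatom M₁ ∧ M₂ = M₁.map (MulAut.conj g).toMonoidHom ∧ M₁ ≠ M₂ ∧ M₁.normalCore = ⊥ ∧ A 0 = M₁ ∧ B 0 = M₂ ∧
      (∀ i, A (i + 1) = ((A i ⊓ B i).subgroupOf M₁).normalCore.map M₁.subtype) ∧
      (∀ i, B (i + 1) = ((A i ⊓ B i).subgroupOf M₂).normalCore.map M₂.subtype) ∧ A 6 = ⊥ ∧ A 5 ≠ ⊥ := by
  have hco : IsCoatom I.M := isCoatom_mx I.P I.s0
  refine ⟨I.M, _, I.s, I.Aseq, I.Bseq, hco, rfl, ?_, ?_, rfl, rfl, I.Aseq_succ, I.Bseq_succ, ?_, ?_⟩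
  · intro h
    apply I.s_notMem
    refine BNP.mem_of_conj_mem I.P (M := I.M) (B_le_mx I.P I.s0) I.s ?_
    intro b hb
    have h1 : b ∈ I.M := B_le_mx I.P I.s0 hb
    have h2 : I.s * b * (I.s)⁻¹ ∈ I.M.map (MulAut.conj I.s).toMonoidHom := ⟨b, h1, rfl⟩
    rw [← h] at h2
    exact h2
  · rcases I.simple.eq_bot_or_eq_top_of_normal _ I.M.normalCore_normal with h5 | h5
    · exact h5
    · exfalso
      apply hco.1
      rw [eq_top_iff, ← h5]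
      exact I.M.normalCore_le
  · rw [eq_bot_iff, ← I.Ul_top (k := 7) (by norm_num)]
    have := I.Aseq_le_Ul 5 le_rfl
    norm_num at this
    exact this
  · intro h
    have h1 := I.Ul_le_Aseq 5
    norm_num at h1
    rw [h] at h1
    have h6 : I.x (I.top 6) ∈ I.Ul 6 :=
      I.x_mem_Ul (I.pos_of_lev _ (by rw [I.lev_top 6 (by norm_num) le_rfl]; norm_num))
        (I.lev_top 6 (by norm_num) le_rfl).ge
    exact I.x_ne _ (Subgroup.mem_bot.1 (h1 h6))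

end ICD

end Cfsg.Agent.ICore
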