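import Cfsg.Agent.BNPair.Parabolic
import Cfsg.Agent.ChevGrp.RGrp

set_option autoImplicit false

/-!
Maximal parabolic subgroups of groups with a (B, N)-pair and the cores in them; iterated cores.
-/

namespace Cfsg.Agent.ICore

open Cfsg Cfsg.Agent

section bn

variable {G : Type*} [Group G] (P : Cfsg.BNPair G)

theorem len_two {a b : P.S} (hab : a ≠ b) : BNP.len P (BNP.σ P a * BNP.σ P b) = 2 := by
  rcases BNP.len_σ_mul_cases P a (BNP.σ P b) with h | h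
  · rw [h, BNP.len_σ]
  · exfalso
    rw [BNP.len_σ] at h
    have h0 : BNP.len P (BNP.σ P a * BNP.σ P b) = 0 := by omega
    have h1 := BNP.eq_one_of_len_eq_zero P h0
    have h2 : BNP.σ P a = BNP.σ P b := by
      rw [mul_eq_one_iff_eq_inv, BNP.σ_inv] at h1
      exact h1
    exact hab (BNP.σ_injective P h2)

theorem len_three {k t : P.S} (hkt : BNP.σ P t * BNP.σ P k ≠ BNP.σ P k * BNP.σ P t) :
    3 ≤ BNP.len P (BNP.σ P t * BNP.σ P k * BNP.σ P t) := by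
  have hne : t ≠ k := by rintro rfl; exact hkt rfl
  by_contra hlt
  apply hkt
  exact BNP.folding P (s := t) (t := t) (u := BNP.σ P k)
    (by rw [len_two P hne, BNP.len_σ]; omega)
    (by rw [len_two P hne.symm, BNP.len_σ]; omega)
    (by rw [BNP.len_σ]; omega)

theorem mem_of_conj_C {k t : P.S} (hkt : BNP.σ P t * BNP.σ P k ≠ BNP.σ P k * BNP.σ P t) {T : Subgroup G}
    (hT : P.B ≤ T) {a : G} (ha : a ∈ BNP.C P (BNP.σ P k)) (h : (t : G)⁻¹ * a * t ∈ T) : (t : G) ∈ T := by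
  have hne : t ≠ k := by rintro rfl; exact hkt rfl
  have h3 := len_three P hkt
  have ht : (t : G)⁻¹ ∈ BNP.C P (BNP.σ P t) := by
    have := BNP.inv_mem_C P (BNP.coe_mem_C_σ P t)
    rwa [BNP.σ_inv] at this
  have h2 : (t : G)⁻¹ * a ∈ BNP.C P (BNP.σ P t * BNP.σ P k) :=
    BNP.mul_mem_C_of_len_le P ht ha (by rw [len_two P hne, BNP.len_σ]; omega)
  have h4 : (t : G)⁻¹ * a * t ∈ BNP.C P (BNP.σ P t * BNP.σ P k * BNP.σ P t) := by
    have h5 := BNP.mul_mem_C_of_len_le P (s := t) (w := (BNP.σ P t * BNP.σ P k)⁻¹)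
      (x := (t : G)⁻¹) (y := ((t : G)⁻¹ * a)⁻¹) ht (BNP.inv_mem_C P h2) (by
        have : BNP.σ P t * (BNP.σ P t * BNP.σ P k)⁻¹ = (BNP.σ P t * BNP.σ P k * BNP.σ P t)⁻¹ := by
          simp [mul_inv_rev]
        rw [this, BNP.len_inv, BNP.len_inv, len_two P hne]
        omega)
    have h6 := BNP.inv_mem_C P h5
    have e1 : ((t : G)⁻¹ * ((t : G)⁻¹ * a)⁻¹)⁻¹ = (t : G)⁻¹ * a * t := by group
    have e2 : (BNP.σ P t * (BNP.σ P t * BNP.σ P k)⁻¹)⁻¹ = BNP.σ P t * BNP.σ P k * BNP.σ P t := by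
      simp [mul_inv_rev]
    rwa [e1, e2] at h6
  have h7 : BNP.wp P [t, k, t] = BNP.σ P t * BNP.σ P k * BNP.σ P t := by simp [mul_assoc]
  have hle := BNP.len_le P [t, k, t]
  exact BNP.letters_mem P hT (l := [t, k, t]) (by
    rw [h7] at hle ⊢
    simp only [List.length_cons, List.length_nil] at hle ⊢
    omega) (by rw [h7]; exact h4) h t (by simp)

/-- the maximal parabolic subgroup omitting a node -/
def mx (s0 : P.S) : Subgroup G := BNP.par P {s | s ≠ s0}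

theorem B_le_mx (s0 : P.S) : P.B ≤ mx P s0 := BNP.B_le_par P _

theorem mem_mx {s0 s : P.S} : (s : G) ∈ mx P s0 ↔ s ≠ s0 := BNP.coe_mem_par_iff P

theorem par_univ : BNP.par P Set.univ = ⊤ := by
  have := BNP.eq_par P (M := ⊤) le_top
  rw [this]
  congr 1

theorem isCoatom_mx (s0 : P.S) : IsCoatom (mx P s0) := by
  constructor
  · intro h
    have h1 : (s0 : G) ∈ mx P s0 := by rw [h]; trivial
    exact (mem_mx P).1 h1 rfl
  · intro M hM
    have hB : P.B ≤ M := (B_le_mx P s0).trans hM.le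
    rw [BNP.eq_par P hB] at hM ⊢
    rw [← par_univ P]
    congr 1
    rw [Set.eq_univ_iff_forall]
    by_contra hcon
    push Not at hcon
    obtain ⟨s, hs⟩ := hcon
    have h1 : {s : P.S | s ≠ s0} ⊆ {s : P.S | (s : G) ∈ M} := (BNP.par_le_par_iff P).1 hM.le
    have h2 : s = s0 := by
      by_contra h
      exact hs (h1 h)
    apply hM.not_ge
    unfold mx
    rw [BNP.par_le_par_iff]
    intro t ht h
    rw [h, ← h2] at ht
    exact hs ht

/-- a normal subgroup of a maximal parabolic subgroup contained in the conjugate by the omitted node lies in `B` -/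
theorem normal_le_B (hirr : P.Irreducible) (s0 : P.S) {A : Subgroup G} (hA : A ≤ mx P s0)
    (hn : ∀ m ∈ mx P s0, ∀ a ∈ A, m * a * m⁻¹ ∈ A) (hc : ∀ a ∈ A, (s0 : G)⁻¹ * a * s0 ∈ mx P s0) : A ≤ P.B := by
  have hT : P.B ≤ P.B ⊔ A := le_sup_left
  have hTm : P.B ⊔ A ≤ mx P s0 := sup_le (B_le_mx P s0) hA
  have hs0 : (s0 : G) ∉ P.B ⊔ A := fun h => (mem_mx P).1 (hTm h) rfl
  by_cases hK : {s | s ∈ P.S ∧ s ∈ P.B ⊔ A}.Nonempty
  · exfalso
    obtain ⟨s, ⟨hs, hsT⟩, t, ⟨ht, htT⟩, hst⟩ := hirr {s | s ∈ P.S ∧ s ∈ P.B ⊔ A} (fun s hs => hs.1) hK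
      ⟨s0, s0.2, fun h => hs0 h.2⟩
    have hcomm : BNP.σ P ⟨t, ht⟩ * BNP.σ P ⟨s, hs⟩ ≠ BNP.σ P ⟨s, hs⟩ * BNP.σ P ⟨t, ht⟩ := by
      intro h
      apply hst
      refine (BNP.mk_eq_one_iff P ((⟨s, P.subset hs⟩ : P.N) * ⟨t, P.subset ht⟩ *
        (⟨s, P.subset hs⟩ : P.N)⁻¹ * (⟨t, P.subset ht⟩ : P.N)⁻¹)).1 ?_
      change BNP.σ P ⟨s, hs⟩ * BNP.σ P ⟨t, ht⟩ * (BNP.σ P ⟨s, hs⟩)⁻¹ * (BNP.σ P ⟨t, ht⟩)⁻¹ = 1
      rw [← h]; group
    obtain ⟨b, hb, a, ha, e⟩ := ChevGrp.mem_sup_of_normalizes (fun b hb a ha => hn b (B_le_mx P s0 hb) a ha) hsT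
    have ha' : a ∈ BNP.C P (BNP.σ P ⟨s, hs⟩) := by
      have h1 : a = b⁻¹ * s := by rw [e]; group
      rw [h1]
      exact BNP.mul_mem_C_left P (P.B.inv_mem hb) (BNP.coe_mem_C_σ P ⟨s, hs⟩)
    by_cases h0 : (⟨t, ht⟩ : P.S) = s0
    · subst h0
      exact (mem_mx P).1 (mem_of_conj_C P hcomm (B_le_mx P _) ha' (hc a ha)) rfl
    · have h1 : t⁻¹ ∈ mx P s0 := inv_mem ((mem_mx P (s := ⟨t, ht⟩)).2 h0)
      have h2 := hn t⁻¹ h1 a ha
      rw [inv_inv] at h2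
      exact htT ⟨ht, mem_of_conj_C P hcomm hT ha' (Subgroup.mem_sup_right h2)⟩
  · have h1 : P.B ⊔ A ≤ P.B := by
      rw [BNP.eq_par P hT, BNP.par_le_iff P le_rfl]
      intro s hs
      exact absurd ⟨(s : G), s.2, hs⟩ hK
    exact le_sup_right.trans h1

end bn

/-! ### cores -/

section core

variable {G : Type*} [Group G]

/-- the core in `M` of `Y` -/
def core (M Y : Subgroup G) : Subgroup G := (Y.subgroupOf M).normalCore.map M.subtype

theorem mem_core {M Y : Subgroup G} {x : G} : x ∈ core M Y ↔ x ∈ M ∧ ∀ m ∈ M, m * x * m⁻¹ ∈ Y := by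
  unfold core
  constructor
  · rintro ⟨y, hy, rfl⟩
    refine ⟨y.2, fun m hm => ?_⟩
    exact hy ⟨m, hm⟩
  · rintro ⟨h1, h2⟩
    exact ⟨⟨x, h1⟩, fun m => h2 m m.2, rfl⟩

theorem core_le (M Y : Subgroup G) : core M Y ≤ Y := by
  intro x hx
  have := (mem_core.1 hx).2 1 (one_mem _)
  simpa using this

theorem core_le_left (M Y : Subgroup G) : core M Y ≤ M := fun _ hx => (mem_core.1 hx).1

theorem core_conj {M Y : Subgroup G} : ∀ m ∈ M, ∀ x ∈ core M Y, m * x * m⁻¹ ∈ core M Y := by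
  intro m hm x hx
  rw [mem_core] at hx ⊢
  refine ⟨mul_mem (mul_mem hm hx.1) (inv_mem hm), fun k hk => ?_⟩
  have := hx.2 (k * m) (mul_mem hk hm)
  have e : k * (m * x * m⁻¹) * k⁻¹ = k * m * x * (k * m)⁻¹ := by group
  rwa [e]

theorem le_core {M Y Z : Subgroup G} (hZM : Z ≤ M) (hZY : Z ≤ Y) (hn : ∀ m ∈ M, ∀ z ∈ Z, m * z * m⁻¹ ∈ Z) :
    Z ≤ core M Y := fun z hz => mem_core.2 ⟨hZM hz, fun m hm => hZY (hn m hm z hz)⟩

/-- the two sequences -/
def seq (M₁ M₂ : Subgroup G) : ℕ → Subgroup G × Subgroup G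
  | 0 => (M₁, M₂)
  | i + 1 => (core M₁ ((seq M₁ M₂ i).1 ⊓ (seq M₁ M₂ i).2), core M₂ ((seq M₁ M₂ i).1 ⊓ (seq M₁ M₂ i).2))

theorem mem_map_conj {s : G} (hs : s * s = 1) {M : Subgroup G} {x : G} :
    x ∈ M.map (MulAut.conj s).toMonoidHom ↔ s * x * s⁻¹ ∈ M := by
  have hinv : s⁻¹ = s := by rw [inv_eq_iff_mul_eq_one]; exact hs
  constructor
  · rintro ⟨y, hy, rfl⟩
    change s * (s * y * s⁻¹) * s⁻¹ ∈ M
    have : s * (s * y * s⁻¹) * s⁻¹ = (s * s) * y * (s * s)⁻¹ := by group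
    rw [this, hs]; simpa using hy
  · intro h
    refine ⟨_, h, ?_⟩
    change s * (s * x * s⁻¹) * s⁻¹ = x
    have : s * (s * x * s⁻¹) * s⁻¹ = (s * s) * x * (s * s)⁻¹ := by group
    rw [this, hs]; simp

theorem seq_symm {s : G} (hs : s * s = 1) (M : Subgroup G) (i : ℕ) (x : G) :
    x ∈ (seq M (M.map (MulAut.conj s).toMonoidHom) i).2 ↔
      s * x * s⁻¹ ∈ (seq M (M.map (MulAut.conj s).toMonoidHom) i).1 := by
  have key : ∀ y : G, s * (s * y * s⁻¹) * s⁻¹ = y := by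
    intro y
    have : s * (s * y * s⁻¹) * s⁻¹ = (s * s) * y * (s * s)⁻¹ := by group
    rw [this, hs]; simp
  induction i generalizing x with
  | zero => exact mem_map_conj hs
  | succ i ih =>
    change x ∈ core _ _ ↔ _ ∈ core _ _
    rw [mem_core, mem_core, mem_map_conj hs]
    have ih' : ∀ y, y ∈ (seq M (M.map (MulAut.conj s).toMonoidHom) i).1 ↔
        s * y * s⁻¹ ∈ (seq M (M.map (MulAut.conj s).toMonoidHom) i).2 := by
      intro y
      have := ih (s * y * s⁻¹)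
      rw [key] at this
      exact this.symm
    constructor
    · rintro ⟨h1, h2⟩
      refine ⟨h1, fun m hm => ?_⟩
      have h3 := h2 (s * m * s⁻¹) (by rw [mem_map_conj hs, key]; exact hm)
      have e : s * m * s⁻¹ * x * (s * m * s⁻¹)⁻¹ = s * (m * (s⁻¹ * x * s) * m⁻¹) * s⁻¹ := by group
      have hinv : s⁻¹ = s := by rw [inv_eq_iff_mul_eq_one]; exact hs
      have e2 : s⁻¹ * x * s = s * x * s⁻¹ := by rw [hinv]
      rw [e, e2] at h3
      exact ⟨(ih' _).2 h3.2, (ih _).2 h3.1⟩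
    · rintro ⟨h1, h2⟩
      refine ⟨h1, fun m hm => ?_⟩
      rw [mem_map_conj hs] at hm
      have h3 := h2 _ hm
      have e : s * m * s⁻¹ * (s * x * s⁻¹) * (s * m * s⁻¹)⁻¹ = s * (m * x * m⁻¹) * s⁻¹ := by group
      rw [e] at h3
      exact ⟨(ih' _).2 h3.2, (ih _).2 h3.1⟩

end core

end Cfsg.Agent.ICore
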