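import Cfsg.Agent.ChevU.VDataE8
import Cfsg.Prelude.Def_ChevE8

set_option autoImplicit false
set_option maxRecDepth 100000

/-!
Tables of the root system of type E8 graded by the coefficient of the branch node.
-/

namespace Cfsg.Agent.ICore

open Cfsg.Lie Cfsg.Agent.ChevU

/-- the level -/
def levT (r : ℕ) : ℤ := (chevE8.coroot.getD r #[]).getD 3 0

/-- the check of the commutator of a fundamental root element with a root element of positive level -/
def ck (j r : ℕ) : Bool :=
  if chevE8.cartan j r < 0 then
    (chevE8.commTerms (chevE8.simple j) r == [(chevE8.reflectRoot j r, 1, 1, 1)]) ||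
    (chevE8.commTerms (chevE8.simple j) r == [(chevE8.reflectRoot j r, -1, 1, 1)])
  else (chevE8.commTerms (chevE8.simple j) r).isEmpty

theorem ck_0 : ∀ r < 240, 1 ≤ levT r → ck 0 r = true := by decide +kernel
theorem ck_1 : ∀ r < 240, 1 ≤ levT r → ck 1 r = true := by decide +kernel
theorem ck_2 : ∀ r < 240, 1 ≤ levT r → ck 2 r = true := by decide +kernel
theorem ck_4 : ∀ r < 240, 1 ≤ levT r → ck 4 r = true := by decide +kernel
theorem ck_5 : ∀ r < 240, 1 ≤ levT r → ck 5 r = true := by decide +kernel
theorem ck_6 : ∀ r < 240, 1 ≤ levT r → ck 6 r = true := by decide +kernel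
theorem ck_7 : ∀ r < 240, 1 ≤ levT r → ck 7 r = true := by decide +kernel

theorem vec3 : ∀ r < 240, rfE8.vec r 3 = levT r := by decide +kernel

/-- the highest roots of the levels -/
def tops : List ℕ := [0, 173, 193, 213, 230, 234, 239]

/-- the check for the top of a level -/
def ckTop (r : ℕ) : Bool :=
  decide (r < tops.getD (levT r).toNat 0) && (List.range 8).any (fun j => decide (j ≠ 3) && decide (chevE8.cartan j r < 0))

theorem ckTop_all : ∀ r < 240, 1 ≤ levT r → r ≠ tops.getD (levT r).toNat 0 → ckTop r = true := by decide +kernel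

theorem lev_tops : ∀ i < 7, 1 ≤ i → levT (tops.getD i 0) = i := by decide +kernel

theorem lev_le6 : ∀ r < 240, levT r ≤ 6 := by decide +kernel

theorem cart3 : ∀ r < 240, 2 ≤ levT r → chevE8.cartan 3 r ≤ 1 := by decide +kernel

/-- a reduced word of the longest element of the Levi subgroup -/
def w0L : List ℕ := [0, 2, 0, 1, 4, 5, 4, 6, 5, 4, 7, 6, 5, 4]

theorem w0_ck : ∀ r < 240, 120 ≤ r → levT r = 0 → w0L.foldr (fun i s => chevE8.reflectRoot i s) r < 120 := by
  decide +kernel

end Cfsg.Agent.ICore
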