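import Cfsg.Agent.ICore.Abs
import Cfsg.Agent.ICore.Tab
import Cfsg.Agent.ChevGrp.InstG
import Cfsg.Agent.ChevGrp.Simple
import Cfsg.Agent.Tw4.Base

set_option autoImplicit false
set_option maxRecDepth 100000

/-!
The data for the group of type E8 over the field with two elements.
-/

namespace Cfsg.Agent.ICore

open Cfsg Cfsg.Lie Cfsg.Agent Cfsg.Agent.Chev Cfsg.Agent.ChevGrp Cfsg.Agent.ChevGrp.DData Cfsg.Agent.ChevGrp.RGrp
  Cfsg.Agent.ChevU Cfsg.Agent.ChevTw Cfsg.Agent.Tw4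

theorem hE8 : Chev.Good chevE8 := good_of_mem (by simp [data])

/-- the group -/
abbrev G8 := ↥(chevE8.group (ZMod 2))

/-- the root subgroups -/
noncomputable def R8 : RGrp dE8.rp.wsys G8 := chevG dE8 hE8 (ZMod 2)

/-- root elements -/
noncomputable def x8 (r : ℕ) : G8 := xG hE8.toGood2 r (1 : ZMod 2)

theorem n8 : chevE8.nroots = 240 := rfl
theorem l8 : chevE8.rank = 8 := rfl

theorem lt240 (r : Fin chevE8.nroots) : (r : ℕ) < 240 := r.2

/-- the branch node -/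
def j3 : Fin chevE8.rank := ⟨3, by decide⟩

theorem zmod2 (t : ZMod 2) : t = 0 ∨ t = 1 := by
  revert t; decide

theorem mem_X8 (r : Fin chevE8.nroots) (g : G8) : g ∈ R8.X r ↔ g = 1 ∨ g = x8 r := by
  unfold R8
  rw [mem_chevG_X]
  constructor
  · rintro ⟨t, rfl⟩
    rcases zmod2 t with rfl | rfl
    · left; exact xG_zero hE8.toGood2 r
    · right; rfl
  · rintro (rfl | rfl)
    · exact ⟨0, (xG_zero hE8.toGood2 r).symm⟩
    · exact ⟨1, rfl⟩

theorem x8_mem (r : Fin chevE8.nroots) : x8 r ∈ R8.X r := (mem_X8 r _).2 (Or.inr rfl)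

theorem x8_sq {r : ℕ} (hr : r < 240) : x8 r * x8 r = 1 := by
  unfold x8
  rw [← xG_add hE8.toGood2 hr]
  have : (1 : ZMod 2) + 1 = 0 := by decide
  rw [this]; exact xG_zero hE8.toGood2 r

theorem x8_inv {r : ℕ} (hr : r < 240) : (x8 r)⁻¹ = x8 r := by
  rw [inv_eq_iff_mul_eq_one]; exact x8_sq hr

theorem diag_bot : chevE8.diagonalSubgroup (ZMod 2) = ⊥ := by
  rw [Inst.diagonal_eq hE8, eq_bot_iff, Subgroup.closure_le]
  rintro g ⟨r, c, -, hc, rfl⟩
  rw [SetLike.mem_coe, Subgroup.mem_bot]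
  have : c = 1 := by
    rcases zmod2 c with h | h
    · exact absurd h hc
    · exact h
  rw [this]
  unfold Inst.hU
  rw [Inst.nU_neg, mul_inv_cancel]

theorem H_bot8 : R8.H = ⊥ := by
  unfold R8
  rw [chevG_H, diag_bot]
  exact Subgroup.bot_subgroupOf _

/-- the level -/
noncomputable def lev8 (r : ℕ) : ℤ := rfE8.vec r 3

theorem lev8_eq {r : ℕ} (hr : r < 240) : lev8 r = levT r := vec3 r hr

theorem half8 : rfE8.half = 120 := by
  have h1 := rfE8.n_eq
  rw [n8] at h1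
  omega

theorem pos8 (r : Fin chevE8.nroots) : dE8.rp.wsys.Pos r ↔ 120 ≤ (r : ℕ) := by
  change dE8.rp.Pos r ↔ _
  rw [← isPosRoot_iff, rfE8.pos_iff r r.2, half8]

theorem w8 (j : Fin chevE8.rank) (r : Fin chevE8.nroots) : (dE8.rp.wsys.w j r : ℕ) = chevE8.reflectRoot j r := dE8.hw j r

theorem p8 (j : Fin chevE8.rank) : (dE8.rp.wsys.p j : ℕ) = chevE8.simple j := dE8.hp j

theorem lev8_refl {j r : ℕ} (hj : j < 8) (hr : r < 240) :
    lev8 (chevE8.reflectRoot j r) = lev8 r - if 3 = j then chevE8.cartan j r else 0 :=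
  rfE8.vec_refl j hj r hr 3

theorem κ_refl {j r : ℕ} (hj : j < 8) (hr : r < 240) :
    rfE8.κ (chevE8.reflectRoot j r) = rfE8.κ r - chevE8.cartan j r * rfE8.κ (chevE8.simple j) := by
  have h := rfE8.κ_of_vec (k := chevE8.reflectRoot j r) (r := r) (s := chevE8.simple j) (a := 1)
    (b := - chevE8.cartan j r) (fun m => by
      rw [rfE8.vec_refl j hj r hr m, rfE8.vec_simple j hj m]
      split_ifs <;> ring)
  rw [h]; ring

theorem comm8 (r s : Fin chevE8.nroots) (hr : dE8.rp.wsys.Pos r) (hs : dE8.rp.wsys.Pos s) :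
    x8 r * x8 s * (x8 r)⁻¹ * (x8 s)⁻¹ ∈ gen R8.X (fun v => dE8.rp.wsys.Pos v ∧ lev8 r + lev8 s ≤ lev8 v) := by
  rw [pos8] at hr hs
  have hr' := lt240 r
  have hs' := lt240 s
  by_cases h1 : (r : ℕ) = s
  · rw [h1]
    have : x8 s * x8 s * (x8 s)⁻¹ * (x8 s)⁻¹ = 1 := by group
    rw [this]; exact one_mem _
  · have h2 : (r : ℕ) ≠ chevE8.neg s := by
      rw [rfE8.neg_eq s s.2]
      have := n8
      omega
    have hw : ∀ w : List (ℕ × ℤ × ℕ × ℕ), (∀ c ∈ w, c ∈ chevE8.commTerms s r) →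
        ∃ g ∈ gen R8.X (fun v => dE8.rp.wsys.Pos v ∧ lev8 r + lev8 s ≤ lev8 v),
          ((g : GL chevE8.Idx (ZMod 2)) : Matrix chevE8.Idx chevE8.Idx (ZMod 2)) =
            chevE8.wordMat (ZMod 2) (w.map fun c => (c.1, (c.2.1 : ZMod 2) * (-1) ^ c.2.2.1 * 1 ^ c.2.2.2)) := by
      intro w
      induction w with
      | nil =>
        intro _
        refine ⟨1, one_mem _, ?_⟩
        simp [ChevalleyDatum.wordMat]
      | cons c w ih =>
        intro h
        obtain ⟨g, hg, e⟩ := ih fun c hc => h c (List.mem_cons_of_mem _ hc)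
        obtain ⟨c1, c2, c3, c4⟩ := rfE8.commTerms_vec (r := s) (s := r) s.2 r.2 c (h c (List.mem_cons_self ..))
        refine ⟨xG hE8.toGood2 c.1 ((c.2.1 : ZMod 2) * (-1) ^ c.2.2.1 * 1 ^ c.2.2.2) * g, mul_mem ?_ hg, ?_⟩
        · have h5 : rfE8.κ c.1 = c.2.2.1 * rfE8.κ s + c.2.2.2 * rfE8.κ r := rfE8.κ_of_vec c4
          have h3 := rfE8.κ_pos s.2 (by rw [half8]; exact hs)
          have h4 := rfE8.κ_pos r.2 (by rw [half8]; exact hr)
          have h6 : (1 : ℤ) ≤ c.2.2.1 := by exact_mod_cast c2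
          have h7 : (1 : ℤ) ≤ c.2.2.2 := by exact_mod_cast c3
          have h8 : 0 < rfE8.κ c.1 := by rw [h5]; positivity
          have h9 : rfE8.half ≤ c.1 := rfE8.tab.half_le_of_κ_pos c1 h8
          refine mem_gen (X := R8.X) (P := fun v => dE8.rp.wsys.Pos v ∧ lev8 r + lev8 s ≤ lev8 v) (r := ⟨c.1, c1⟩)
            ⟨(pos8 _).2 (by rw [half8] at h9; exact h9), ?_⟩ ?_
          · change _ ≤ lev8 c.1
            have h10 : lev8 c.1 = c.2.2.1 * lev8 s + c.2.2.2 * lev8 r := c4 3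
            have h11 : 0 ≤ lev8 s := rfE8.vec_nonneg s (by rw [half8]; exact hs) s.2 3
            have h12 : 0 ≤ lev8 r := rfE8.vec_nonneg r (by rw [half8]; exact hr) r.2 3
            rw [h10]; nlinarith
          · unfold R8
            rw [mem_chevG_X]
            exact ⟨_, rfl⟩
        · rw [Subgroup.coe_mul, Units.val_mul, e, xG_coe]
          simp [ChevalleyDatum.wordMat]
    obtain ⟨g, hg, e⟩ := hw (chevE8.commTerms s r) fun c hc => hc
    have h3 := hE8.comm (F := ZMod 2) s.2 r.2 h1 h2 1 1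
    unfold ChevalleyDatum.commWord at h3
    rw [← e] at h3
    have h4 : x8 r * x8 s = x8 s * x8 r * g := by
      apply eq_of_coe
      simp only [Subgroup.coe_mul, Units.val_mul, x8, xG_coe]
      exact h3
    have h5 : g = x8 r * x8 s * (x8 r)⁻¹ * (x8 s)⁻¹ := by
      have : g = (x8 r)⁻¹ * (x8 s)⁻¹ * (x8 s * x8 r * g) := by group
      rw [this, ← h4, x8_inv hr', x8_inv hs']; group
    rw [← h5]; exact hg

theorem ck_all {j r : ℕ} (hj : j < 8) (hj3 : j ≠ 3) (hr : r < 240) (hl : 1 ≤ levT r) : ck j r = true := by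
  have : j = 0 ∨ j = 1 ∨ j = 2 ∨ j = 4 ∨ j = 5 ∨ j = 6 ∨ j = 7 := by omega
  rcases this with rfl | rfl | rfl | rfl | rfl | rfl | rfl
  exacts [ck_0 r hr hl, ck_1 r hr hl, ck_2 r hr hl, ck_4 r hr hl, ck_5 r hr hl, ck_6 r hr hl, ck_7 r hr hl]

theorem terms_adj {j r : ℕ} (hj : j < 8) (hj3 : j ≠ 3) (hr : r < 240) (hl : 1 ≤ lev8 r) (hc : chevE8.cartan j r < 0) :
    ∃ c : ℤ, (c = 1 ∨ c = -1) ∧ chevE8.commTerms (chevE8.simple j) r = [(chevE8.reflectRoot j r, c, 1, 1)] := by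
  rw [lev8_eq hr] at hl
  have hck := ck_all hj hj3 hr hl
  unfold ck at hck
  rw [if_pos hc, Bool.or_eq_true, beq_iff_eq, beq_iff_eq] at hck
  rcases hck with h | h
  · exact ⟨1, Or.inl rfl, h⟩
  · exact ⟨-1, Or.inr rfl, h⟩

theorem terms_nadj {j r : ℕ} (hj : j < 8) (hj3 : j ≠ 3) (hr : r < 240) (hl : 1 ≤ lev8 r) (hc : ¬ chevE8.cartan j r < 0) :
    chevE8.commTerms (chevE8.simple j) r = [] := by
  rw [lev8_eq hr] at hl
  have hck := ck_all hj hj3 hr hl
  unfold ck at hck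
  rw [if_neg hc, List.isEmpty_iff] at hck
  exact hck

theorem simple_lt8 {j : ℕ} (hj : j < 8) : chevE8.simple j < 240 := rfE8.simple_lt j hj

theorem lev8_simple {j : ℕ} (hj : j < 8) (hj3 : j ≠ 3) : lev8 (chevE8.simple j) = 0 := by
  unfold lev8
  rw [rfE8.vec_simple j hj 3, if_neg (by omega)]

theorem ne_simple {j r : ℕ} (hj : j < 8) (hj3 : j ≠ 3) (hl : 1 ≤ lev8 r) :
    r ≠ chevE8.simple j ∧ r ≠ chevE8.neg (chevE8.simple j) := by
  have h0 := lev8_simple hj hj3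
  refine ⟨fun h => ?_, fun h => ?_⟩
  · rw [h] at hl; omega
  · rw [h, rfE8.neg_eq _ (simple_lt8 hj)] at hl
    have : lev8 (chevE8.nroots - 1 - chevE8.simple j) = - lev8 (chevE8.simple j) :=
      rfE8.vec_neg _ (simple_lt8 hj) 3
    omega

theorem simp_comm8 {j r : ℕ} (hj : j < 8) (hj3 : j ≠ 3) (hr : r < 240) (hl : 1 ≤ lev8 r) :
    (chevE8.cartan j r < 0 ∧ x8 (chevE8.simple j) * x8 r * (x8 (chevE8.simple j))⁻¹ =
      x8 r * x8 (chevE8.reflectRoot j r)) ∨
    (¬ chevE8.cartan j r < 0 ∧ x8 (chevE8.simple j) * x8 r * (x8 (chevE8.simple j))⁻¹ = x8 r) := by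
  have hp := simple_lt8 hj
  obtain ⟨h1, h2⟩ := ne_simple hj hj3 hl
  by_cases hc : chevE8.cartan j r < 0
  · left
    refine ⟨hc, ?_⟩
    obtain ⟨c, hc1, hc2⟩ := terms_adj hj hj3 hr hl hc
    have h3 := xG_comm_one' hE8 (K := ZMod 2) (r := chevE8.simple j) (s := r) hp hr h1 h2 hc2 1 1
    have h4 : (c : ZMod 2) * (-1) * 1 = 1 := by
      rcases hc1 with rfl | rfl <;> decide
    rw [h4] at h3
    change x8 r * x8 (chevE8.simple j) = x8 (chevE8.simple j) * x8 r * x8 (chevE8.reflectRoot j r) at h3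
    have h5 : x8 r * x8 (chevE8.reflectRoot j r) = (x8 (chevE8.simple j))⁻¹ * (x8 r * x8 (chevE8.simple j)) := by
      rw [h3]; group
    rw [h5, x8_inv hp, mul_assoc]
  · right
    refine ⟨hc, ?_⟩
    have h3 := xG_comm hE8 (K := ZMod 2) (r := chevE8.simple j) (s := r) hp hr h1 h2 (terms_nadj hj hj3 hr hl hc) 1 1
    change x8 (chevE8.simple j) * x8 r = x8 r * x8 (chevE8.simple j) at h3
    rw [h3, mul_inv_cancel_right]

theorem κ_adj {j r : ℕ} (hj : j < 8) (hj3 : j ≠ 3) (hr : r < 240) (hl : 1 ≤ lev8 r) (hc : chevE8.cartan j r < 0) :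
    rfE8.κ (chevE8.reflectRoot j r) = rfE8.κ (chevE8.simple j) + rfE8.κ r := by
  obtain ⟨c, -, hc2⟩ := terms_adj hj hj3 hr hl hc
  obtain ⟨-, -, -, h⟩ := rfE8.commTerms_vec (r := chevE8.simple j) (s := r) (simple_lt8 hj) hr
    (chevE8.reflectRoot j r, c, 1, 1) (by rw [hc2]; simp)
  have h2 := rfE8.κ_of_vec h
  rw [h2]; push_cast; ring

theorem κ_simple {j : ℕ} (hj : j < 8) : 0 < rfE8.κ (chevE8.simple j) := by
  apply rfE8.κ_pos (simple_lt8 hj)
  by_contra h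
  have h1 : chevE8.simple j < rfE8.half := by omega
  have h2 : chevE8.IsNegRoot (chevE8.simple j) := (rfE8.neg_iff _ (simple_lt8 hj)).2 h1
  have h3 := dE8.rp.pos_p ⟨j, hj⟩
  rw [← isPosRoot_iff, dE8.hp, rfE8.pos_iff _ (simple_lt8 hj)] at h3
  exact h h3

theorem lt_refl8 {j r : ℕ} (hj : j < 8) (hj3 : j ≠ 3) (hr : r < 240) (hl : 1 ≤ lev8 r) (hc : chevE8.cartan j r < 0) :
    r < chevE8.reflectRoot j r := by
  apply rfE8.tab.lt_of_κ_lt (r := r) (s := chevE8.reflectRoot j r) hr (rfE8.refl_lt j hj r hr)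
  change rfE8.κ r < rfE8.κ (chevE8.reflectRoot j r)
  rw [κ_adj hj hj3 hr hl hc]
  have := κ_simple hj
  omega

theorem mono_refl8 {j r s : ℕ} (hj : j < 8) (hj3 : j ≠ 3) (hr : r < 240) (hs : s < 240) (hl : 1 ≤ lev8 r)
    (hl' : 1 ≤ lev8 s) (hc : chevE8.cartan j r < 0) (hc' : chevE8.cartan j s < 0) (h : r < s) :
    chevE8.reflectRoot j r < chevE8.reflectRoot j s := by
  apply rfE8.tab.lt_of_κ_lt (rfE8.refl_lt j hj r hr) (rfE8.refl_lt j hj s hs)
  change rfE8.κ (chevE8.reflectRoot j r) < rfE8.κ (chevE8.reflectRoot j s)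
  rw [κ_adj hj hj3 hr hl hc, κ_adj hj hj3 hs hl' hc']
  have h1 : rfE8.κ r < rfE8.κ s := rfE8.mono r s h hs
  omega

theorem tops_lt (k : ℕ) : tops.getD k 0 < chevE8.nroots := by
  change tops.getD k 0 < 240
  rcases Nat.lt_or_ge k 7 with h | h
  · interval_cases k <;> decide
  · rw [List.getD_eq_default _ _ (by simpa [tops] using h)]
    norm_num

/-- the highest roots -/
def top8 (i : ℤ) : Fin chevE8.nroots := ⟨tops.getD i.toNat 0, tops_lt _⟩

theorem lev_top8 (i : ℤ) (h1 : 1 ≤ i) (h6 : i ≤ 6) : lev8 (top8 i) = i := by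
  rw [lev8_eq (lt240 _)]
  have h := lev_tops i.toNat (by omega) (by omega)
  change levT (tops.getD i.toNat 0) = i
  rw [h]; omega

theorem le_top8 (i : ℤ) (r : Fin chevE8.nroots) (h1 : 1 ≤ i) (h6 : i ≤ 6) (hr : lev8 r = i) (hne : r ≠ top8 i) :
    r < top8 i ∧ ∃ j : Fin chevE8.rank, j ≠ j3 ∧ chevE8.cartan j r < 0 := by
  rw [lev8_eq (lt240 r)] at hr
  have hne' : (r : ℕ) ≠ tops.getD (levT r).toNat 0 := by
    rw [hr]; intro h; exact hne (Fin.ext h)
  have h := ckTop_all r (lt240 r) (by omega) hne'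
  unfold ckTop at h
  rw [Bool.and_eq_true, decide_eq_true_eq, List.any_eq_true] at h
  obtain ⟨h2, j, hj, h3⟩ := h
  rw [Bool.and_eq_true, decide_eq_true_eq, decide_eq_true_eq] at h3
  rw [List.mem_range] at hj
  refine ⟨?_, ⟨j, hj⟩, ?_, h3.2⟩
  · rw [Fin.lt_def]
    rw [hr] at h2
    exact h2
  · intro h4
    exact h3.1 (congrArg Fin.val h4)

/-- the word -/
def L8 : List (Fin chevE8.rank) := [⟨0, by decide⟩, ⟨2, by decide⟩, ⟨0, by decide⟩, ⟨1, by decide⟩, ⟨4, by decide⟩,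
  ⟨5, by decide⟩, ⟨4, by decide⟩, ⟨6, by decide⟩, ⟨5, by decide⟩, ⟨4, by decide⟩, ⟨7, by decide⟩, ⟨6, by decide⟩,
  ⟨5, by decide⟩, ⟨4, by decide⟩]

theorem wd8 (L : List (Fin chevE8.rank)) (r : Fin chevE8.nroots) :
    (dE8.rp.wsys.wd L r : ℕ) = (L.map Fin.val).foldr (fun i s => chevE8.reflectRoot i s) r := by
  induction L with
  | nil => rfl
  | cons i L ih =>
    rw [WSys.wd_cons, Equiv.Perm.mul_apply, w8, ih]
    rfl

theorem longest8 (r : Fin chevE8.nroots) (hr : dE8.rp.wsys.Pos r) (h : lev8 r = 0) :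
    ¬ dE8.rp.wsys.Pos (dE8.rp.wsys.wd L8 r) := by
  rw [pos8] at hr ⊢
  rw [lev8_eq (lt240 r)] at h
  have h1 := w0_ck r (lt240 r) hr h
  rw [wd8]
  have : L8.map Fin.val = w0L := rfl
  rw [this]; omega

theorem mem_types : chevE8 ∈ types7 := by simp [types7]

theorem simple8 : IsSimpleGroup G8 :=
  (simple_of (F := ZMod 2) mem_types (perfect (by simp [data]) (by
    rintro (h | h)
    · exact absurd (congrArg ChevalleyDatum.rank h) (by decide)
    · exact absurd (congrArg ChevalleyDatum.rank h) (by decide)))).1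

/-- the data for type E8 -/
noncomputable def icd8 : ICD R8 where
  j0 := j3
  lev r := lev8 r
  x r := x8 r
  H_bot := H_bot8
  Grp_top := chevG_Grp dE8 hE8
  mem_X := mem_X8
  lev_w j hj r := by
    rw [w8, lev8_refl j.2 r.2, if_neg, sub_zero]
    intro h; exact hj (Fin.ext h.symm)
  lev_w0 r h := by
    rw [w8]
    have h1 : lev8 (chevE8.reflectRoot j3 r) = lev8 r - if 3 = 3 then chevE8.cartan 3 r else 0 :=
      lev8_refl (j := 3) (by norm_num) r.2
    rw [h1, if_pos rfl]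
    have h2 := cart3 r r.2 (by rw [← lev8_eq (lt240 r)]; exact h)
    omega
  pos_of_lev r h := by
    rw [pos8, ← half8]
    exact rfE8.half_le_of_vec_pos r.2 h
  lev_nonneg r h := by
    rw [pos8, ← half8] at h
    exact rfE8.vec_nonneg r h r.2 3
  lev_p0 := by
    rw [p8]
    exact (rfE8.vec_simple 3 (by decide) 3).trans (if_pos rfl)
  comm := comm8
  adj j r := chevE8.cartan j r < 0
  simp_comm j hj r hl := by
    rw [p8, w8]
    exact simp_comm8 j.2 (fun h => hj (Fin.ext h)) r.2 hl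
  adj_lt j hj r hl hc := by
    rw [Fin.lt_def, w8]
    exact lt_refl8 j.2 (fun h => hj (Fin.ext h)) r.2 hl hc
  adj_mono j hj r s hl hl' hc hc' h := by
    rw [Fin.lt_def, w8, w8]
    exact mono_refl8 j.2 (fun h => hj (Fin.ext h)) r.2 s.2 hl hl' hc hc' h
  top := top8
  lev_top := lev_top8
  le_top := le_top8
  lev_le r := by rw [lev8_eq (lt240 r)]; exact lev_le6 r r.2
  longest0 := ⟨L8, by
    intro j hj
    have h1 : (j : ℕ) ∈ w0L := List.mem_map_of_mem (f := Fin.val) hj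
    intro h
    rw [h] at h1
    exact absurd h1 (by decide), longest8⟩
  conn := ChevGrp.conn mem_types dE8
  simple := simple8

end Cfsg.Agent.ICore
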